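-- Team project APQ (S4150, helper69): package [NTBINOM] (helper55).
import Mathlib
import Cfsg.Agent.Lib.Helper69.APQ.Defs

set_option autoImplicit false

namespace Cfsg.Agent.Lib.Helper55.APQ

open Nat

/-- The part of the prime factorization of the central binomial coefficient at primes
`≤ 2n/3` (this is the part of Mathlib's proof of Bertrand's postulate that does not use the
hypothesis). -/
theorem centralBinom_small_part (n : ℕ) (n_large : 2 < n) :
    ∏ p ∈ Finset.range (2 * n / 3 + 1), p ^ (centralBinom n).factorization p ≤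
      (2 * n) ^ sqrt (2 * n) * 4 ^ (2 * n / 3) := by
  have n_pos : 0 < n := (Nat.zero_le _).trans_lt n_large
  have n2_pos : 1 ≤ 2 * n := mul_pos (zero_lt_two' ℕ) n_pos
  let S := {p ∈ Finset.range (2 * n / 3 + 1) | Nat.Prime p}
  let f x := x ^ n.centralBinom.factorization x
  have : ∏ x ∈ S, f x = ∏ x ∈ Finset.range (2 * n / 3 + 1), f x := by
    refine Finset.prod_filter_of_ne fun p _ h => ?_
    contrapose h; dsimp only [f]
    rw [factorization_eq_zero_of_not_prime n.centralBinom h, _root_.pow_zero]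
  show ∏ x ∈ Finset.range (2 * n / 3 + 1), f x ≤ _
  rw [← this, ← Finset.prod_filter_mul_prod_filter_not S (· ≤ sqrt (2 * n))]
  apply mul_le_mul'
  · refine (Finset.prod_le_prod' fun p _ => (?_ : f p ≤ 2 * n)).trans ?_
    · exact pow_factorization_choose_le (mul_pos two_pos n_pos)
    have : (Finset.Icc 1 (sqrt (2 * n))).card = sqrt (2 * n) := by rw [card_Icc, Nat.add_sub_cancel]
    rw [Finset.prod_const]
    refine pow_right_mono₀ n2_pos ((Finset.card_le_card fun x hx => ?_).trans this.le)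
    obtain ⟨h1, h2⟩ := Finset.mem_filter.1 hx
    exact Finset.mem_Icc.mpr ⟨(Finset.mem_filter.1 h1).2.one_lt.le, h2⟩
  · refine le_trans ?_ (primorial_le_four_pow (2 * n / 3))
    refine (Finset.prod_le_prod' fun p hp => (?_ : f p ≤ p)).trans ?_
    · obtain ⟨h1, h2⟩ := Finset.mem_filter.1 hp
      refine (pow_right_mono₀ (Finset.mem_filter.1 h1).2.one_lt.le ?_).trans (pow_one p).le
      exact Nat.factorization_choose_le_one (sqrt_lt'.mp <| not_le.1 h2)
    refine Finset.prod_le_prod_of_subset_of_one_le' (Finset.filter_subset _ _) ?_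
    exact fun p hp _ => (Finset.mem_filter.1 hp).2.one_lt.le

theorem three_sorted {a b c : ℕ} (hab : a ≠ b) (hac : a ≠ c) (hbc : b ≠ c) (P : ℕ → Prop)
    (ha : P a) (hb : P b) (hc : P c) : ∃ x y z, P x ∧ P y ∧ P z ∧ x < y ∧ y < z := by
  rcases Nat.lt_or_gt_of_ne hab with h | h <;> rcases Nat.lt_or_gt_of_ne hac with h' | h' <;>
    rcases Nat.lt_or_gt_of_ne hbc with h'' | h''
  · exact ⟨a, b, c, ha, hb, hc, h, h''⟩
  · exact ⟨a, c, b, ha, hc, hb, h', h''⟩
  · omega
  · exact ⟨c, a, b, hc, ha, hb, h', h⟩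
  · exact ⟨b, a, c, hb, ha, hc, h, h'⟩
  · omega
  · exact ⟨b, c, a, hb, hc, ha, h'', h'⟩
  · exact ⟨c, b, a, hc, hb, ha, h'', h⟩

/-- [NTBINOM] -/
theorem pkgNTBinom : Cfsg.Agent.Lib.Helper69.APQ.PkgNTBinom := by
  intro n n_large h3
  have n_pos : 0 < n := by omega
  rw [← n.prod_pow_factorization_centralBinom]
  have hsplit : Finset.range (2 * n + 1) =
      Finset.range (2 * n / 3 + 1) ∪ Finset.Ico (2 * n / 3 + 1) (2 * n + 1) := by
    ext x; simp only [Finset.mem_range, Finset.mem_union, Finset.mem_Ico]; omega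
  have hdisj : Disjoint (Finset.range (2 * n / 3 + 1))
      (Finset.Ico (2 * n / 3 + 1) (2 * n + 1)) := by
    rw [Finset.disjoint_left]
    intro x hx hx'
    simp only [Finset.mem_range, Finset.mem_Ico] at hx hx'
    omega
  rw [hsplit, Finset.prod_union hdisj]
  apply Nat.mul_le_mul (centralBinom_small_part n n_large)
  have h1 : ∏ x ∈ (Finset.Ico (2 * n / 3 + 1) (2 * n + 1)).filter (fun x => x.Prime ∧ n < x),
        x ^ (centralBinom n).factorization x =
      ∏ x ∈ Finset.Ico (2 * n / 3 + 1) (2 * n + 1), x ^ (centralBinom n).factorization x := by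
    apply Finset.prod_filter_of_ne
    intro x hx hne
    by_contra hcon
    apply hne
    rw [Finset.mem_Ico] at hx
    by_cases hp : x.Prime
    · have hxn : x ≤ n := by
        by_contra h
        exact hcon ⟨hp, by omega⟩
      rw [factorization_centralBinom_of_two_mul_self_lt_three_mul n_large hxn (by omega),
        _root_.pow_zero]
    · rw [factorization_eq_zero_of_not_prime _ hp, _root_.pow_zero]
  rw [← h1]
  have h2 : ((Finset.Ico (2 * n / 3 + 1) (2 * n + 1)).filter
      (fun x => x.Prime ∧ n < x)).card ≤ 2 := by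
    by_contra hc
    rw [not_le, Finset.two_lt_card_iff] at hc
    obtain ⟨a, b, c, ha, hb, hc', hab, hac, hbc⟩ := hc
    simp only [Finset.mem_filter, Finset.mem_Ico] at ha hb hc'
    obtain ⟨x, y, z, hx, hy, hz, hxy, hyz⟩ :=
      three_sorted hab hac hbc (fun t => (2 * n / 3 + 1 ≤ t ∧ t < 2 * n + 1) ∧ t.Prime ∧ n < t)
        ha hb hc'
    exact h3 x y z hx.2.1 hy.2.1 hz.2.1 hx.2.2 hxy hyz (by omega)
  calc ∏ x ∈ (Finset.Ico (2 * n / 3 + 1) (2 * n + 1)).filter (fun x => x.Prime ∧ n < x),
        x ^ (centralBinom n).factorization x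
      ≤ ∏ _x ∈ (Finset.Ico (2 * n / 3 + 1) (2 * n + 1)).filter (fun x => x.Prime ∧ n < x),
        (2 * n) :=
        Finset.prod_le_prod' (fun p _ => pow_factorization_choose_le (mul_pos two_pos n_pos))
    _ = (2 * n) ^ ((Finset.Ico (2 * n / 3 + 1) (2 * n + 1)).filter
        (fun x => x.Prime ∧ n < x)).card := by rw [Finset.prod_const]
    _ ≤ (2 * n) ^ 2 := Nat.pow_le_pow_right (by omega) h2

end Cfsg.Agent.Lib.Helper55.APQ
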